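import Mathlib.GroupTheory.Sylow
import Mathlib.LinearAlgebra.Eigenspace.Minpoly
import Mathlib.FieldTheory.Finite.Basic
import Mathlib.Algebra.Module.ZMod

/-! Common eigenvectors of commuting endomorphisms `f` of a `p`-group with `f ^ p = f`. -/

set_option autoImplicit false

namespace Cfsg.Agent.Fus2

open Polynomial

variable {p : ℕ}

theorem exists_eigen_module [hp : Fact p.Prime] {V : Type*} [AddCommGroup V] [Module (ZMod p) V]
    [Finite V] [Nontrivial V] (T : Module.End (ZMod p) V) (hT : ∀ v, T^[p] v = T v) :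
    ∃ v : V, v ≠ 0 ∧ ∃ n : ℕ, T v = n • v := by
  have hT : aeval T (X ^ p - X : (ZMod p)[X]) = 0 := by
    rw [map_sub, map_pow, aeval_X, sub_eq_zero]
    ext v
    rw [Module.End.pow_apply]
    exact hT v
  have hs : (X ^ p - X : (ZMod p)[X]).Splits := by
    rw [splits_iff_card_roots]
    have h1 := FiniteField.roots_X_pow_card_sub_X (ZMod p)
    rw [ZMod.card] at h1
    rw [h1, FiniteField.X_pow_card_sub_X_natDegree_eq _ hp.out.one_lt, ← Finset.card_def,
      Finset.card_univ, ZMod.card]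
  have hi : IsIntegral (ZMod p) T := Algebra.IsIntegral.isIntegral T
  obtain ⟨μ, hμ⟩ := (hs.of_dvd (FiniteField.X_pow_card_sub_X_ne_zero _ hp.out.one_lt)
    (minpoly.dvd _ _ hT)).exists_eval_eq_zero (minpoly.degree_pos hi).ne'
  obtain ⟨v, hv⟩ := (Module.End.hasEigenvalue_iff_isRoot.2 hμ).exists_hasEigenvector
  refine ⟨v, hv.2, μ.val, ?_⟩
  have := hv.apply_eq_smul
  rwa [← ZMod.natCast_zmod_val μ, Nat.cast_smul_eq_nsmul] at this

theorem exists_eigen_comm [hp : Fact p.Prime] {V : Type*} [CommGroup V] [Finite V] [Nontrivial V]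
    (hV : ∀ v : V, v ^ p = 1) (f : V →* V) (hf : ∀ v, f^[p] v = f v) :
    ∃ v : V, v ≠ 1 ∧ ∃ n : ℕ, f v = v ^ n := by
  let _ : Module (ZMod p) (Additive V) := AddCommGroup.zmodModule fun x => hV x.toMul
  obtain ⟨v, hv, n, e⟩ := exists_eigen_module ((MonoidHom.toAdditive f).toZModLinearMap p)
    fun v => hf v.toMul
  exact ⟨v.toMul, hv, n, e⟩

/-- Commuting endomorphisms with `f ^ p = f` of a nontrivial finite `p`-group have a common central
eigenvector, provided they preserve the centre. -/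
theorem exists_common_eigen [hp : Fact p.Prime] {G : Type*} [Group G] [Finite G] [Nontrivial G]
    (hG : IsPGroup p G) {ι : Type*} (f : ι → G →* G) (hs : ∀ i, Function.Surjective (f i))
    (hc : ∀ i j x, f i (f j x) = f j (f i x)) (hf : ∀ i x, (f i)^[p] x = f i x) :
    ∃ x : G, x ≠ 1 ∧ x ∈ Subgroup.center G ∧ ∀ i, f i x ∈ Subgroup.zpowers x := by
  let C : Subgroup G → Prop := fun W => W ≠ ⊥ ∧ W ≤ Subgroup.center G ∧ (∀ w ∈ W, w ^ p = 1) ∧
    ∀ i, ∀ w ∈ W, f i w ∈ W
  have hZ : ∀ i, ∀ w ∈ Subgroup.center G, f i w ∈ Subgroup.center G := fun i w hw =>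
    Subgroup.mem_center_iff.2 fun g => by
      obtain ⟨g, rfl⟩ := hs i g
      rw [← map_mul, ← map_mul, Subgroup.mem_center_iff.1 hw]
  let V : Subgroup G :=
    { carrier := {w | w ∈ Subgroup.center G ∧ w ^ p = 1}
      one_mem' := ⟨Subgroup.one_mem _, one_pow _⟩
      mul_mem' := fun {a b} ha hb => ⟨Subgroup.mul_mem _ ha.1 hb.1, by
        rw [Commute.mul_pow (Subgroup.mem_center_iff.1 hb.1 a), ha.2, hb.2, one_mul]⟩
      inv_mem' := fun ha => ⟨Subgroup.inv_mem _ ha.1, by rw [inv_pow, ha.2, inv_one]⟩ }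
  have hV : C V := by
    refine ⟨?_, fun _ h => h.1, fun _ h => h.2, fun i w hw => ⟨hZ i w hw.1, by
      rw [← map_pow, hw.2, map_one]⟩⟩
    have := hG.center_nontrivial
    obtain ⟨k, hk0, hk⟩ := (IsPGroup.nontrivial_iff_card (hG.to_subgroup (Subgroup.center G))).1 this
    obtain ⟨x, hx⟩ := exists_prime_orderOf_dvd_card' (G := Subgroup.center G) p
      (hk ▸ dvd_pow_self p hk0.ne')
    refine Subgroup.ne_bot_iff_exists_ne_one.2 ⟨⟨x, x.2, ?_⟩, fun e => ?_⟩
    · rw [← Subgroup.coe_pow, ← hx, pow_orderOf_eq_one, Subgroup.coe_one]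
    · have : x = 1 := Subtype.ext (by have := congrArg Subtype.val e; exact this)
      rw [this, orderOf_one] at hx
      exact hp.out.one_lt.ne hx
  obtain ⟨W, hW, hmin⟩ := (wellFounded_lt (α := Subgroup G)).has_min {W | C W} ⟨V, hV⟩
  obtain ⟨h1, h2, h3, h4⟩ := hW
  have : Nontrivial W := (Subgroup.nontrivial_iff_ne_bot W).2 h1
  obtain ⟨⟨x, hx⟩, hx1⟩ := exists_ne (1 : W)
  refine ⟨x, fun e => hx1 (Subtype.ext e), h2 hx, fun i => ?_⟩
  let _ : CommGroup W := { (inferInstance : Group W) with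
    mul_comm := fun a b => Subtype.ext (Subgroup.mem_center_iff.1 (h2 b.2) a) }
  let g : W →* W := ((f i).comp W.subtype).codRestrict W fun w => h4 i w w.2
  have hg : ∀ n (w : W), (g^[n] w : G) = (f i)^[n] w := fun n => by
    induction n with
    | zero => exact fun _ => rfl
    | succ n ih => exact fun w => by rw [Function.iterate_succ_apply, ih]; rfl
  obtain ⟨v, hv1, n, hv⟩ := exists_eigen_comm (fun w : W => Subtype.ext (h3 w w.2)) g
    fun w => Subtype.ext ((hg p w).trans (hf i w))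
  let K : Subgroup G :=
    { carrier := {w | w ∈ W ∧ f i w = w ^ n}
      one_mem' := ⟨W.one_mem, by rw [map_one, one_pow]⟩
      mul_mem' := fun {a b} ha hb => ⟨W.mul_mem ha.1 hb.1, by
        rw [map_mul, ha.2, hb.2, Commute.mul_pow (Subgroup.mem_center_iff.1 (h2 hb.1) a)]⟩
      inv_mem' := fun ha => ⟨W.inv_mem ha.1, by rw [map_inv, ha.2, inv_pow]⟩ }
  have hK : C K := ⟨Subgroup.ne_bot_iff_exists_ne_one.2 ⟨⟨v, v.2, congrArg Subtype.val hv⟩,
    fun e => hv1 (Subtype.ext (by have := congrArg Subtype.val e; exact this))⟩, fun _ h => h2 h.1, fun w h => h3 w h.1,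
    fun j w hw => ⟨h4 j w hw.1, by rw [hc, hw.2, map_pow]⟩⟩
  have hKW : K = W := (eq_or_lt_of_le (fun _ h => h.1 : K ≤ W)).resolve_right (hmin K hK)
  have : f i x = x ^ n := (hKW.ge hx).2
  exact this ▸ Subgroup.npow_mem_zpowers x n

/-- The same modulo a proper invariant normal subgroup. -/
theorem exists_common_eigen_mod [Fact p.Prime] {G : Type*} [Group G] [Finite G]
    (hG : IsPGroup p G) {ι : Type*} (f : ι → G →* G) (hs : ∀ i, Function.Surjective (f i))
    (hc : ∀ i j x, f i (f j x) = f j (f i x)) (hf : ∀ i x, (f i)^[p] x = f i x) (N : Subgroup G)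
    [N.Normal] (hN : N ≠ ⊤) (hi : ∀ i, ∀ x ∈ N, f i x ∈ N) :
    ∃ x : G, x ∉ N ∧ (∀ g, g * x * g⁻¹ ∈ N ⊔ Subgroup.zpowers x) ∧
      ∀ i, f i x ∈ N ⊔ Subgroup.zpowers x := by
  have : Nontrivial (G ⧸ N) := QuotientGroup.nontrivial_iff.2 hN
  let g : ι → G ⧸ N →* G ⧸ N := fun i => QuotientGroup.map N N (f i) (hi i)
  have hg : ∀ i n (x : G), (g i)^[n] (x : G ⧸ N) = ((f i)^[n] x : G) := fun i n => by
    induction n with
    | zero => exact fun _ => rfl
    | succ n ih =>
      intro w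
      rw [Function.iterate_succ_apply, Function.iterate_succ_apply, ← ih]; rfl
  obtain ⟨x, h1, h2, h3⟩ := exists_common_eigen (hG.to_quotient N) g
    (fun i y => by
      obtain ⟨y, rfl⟩ := QuotientGroup.mk_surjective y
      obtain ⟨x, rfl⟩ := hs i y
      exact ⟨x, rfl⟩)
    (fun i j x => by
      obtain ⟨x, rfl⟩ := QuotientGroup.mk_surjective x
      exact congrArg QuotientGroup.mk (hc i j x))
    fun i x => by
      obtain ⟨x, rfl⟩ := QuotientGroup.mk_surjective x
      rw [hg, hf]; rfl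
  obtain ⟨x, rfl⟩ := QuotientGroup.mk_surjective x
  have key : ∀ y : G, (y : G ⧸ N) ∈ Subgroup.zpowers (x : G ⧸ N) → y ∈ N ⊔ Subgroup.zpowers x := by
    rintro y ⟨n, hn⟩
    have : (x ^ n)⁻¹ * y ∈ N := QuotientGroup.eq.1 (by simpa using hn)
    have h4 := Subgroup.mul_mem _ (Subgroup.mem_sup_right (Subgroup.zpow_mem_zpowers x n))
      (Subgroup.mem_sup_left (T := Subgroup.zpowers x) this)
    rwa [mul_inv_cancel_left] at h4
  refine ⟨x, fun h => h1 ((QuotientGroup.eq_one_iff x).2 h), fun y => key _ ?_, fun i => key _ (h3 i)⟩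
  rw [QuotientGroup.mk_mul, QuotientGroup.mk_mul, Subgroup.mem_center_iff.1 h2,
    QuotientGroup.mk_inv, mul_inv_cancel_right]
  exact Subgroup.mem_zpowers _

end Cfsg.Agent.Fus2
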