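import Cfsg.Agent.Lib.Fus2.Solv
import Cfsg.Agent.Lib.Fus2.Eigen
import Mathlib.GroupTheory.SchurZassenhaus

/-! Systems generated by a group of automorphisms of `S`; supersoluble fusion systems. -/

set_option autoImplicit false

namespace Cfsg.Agent.Fus2

open Cfsg Cfsg.FusionSystem Fus Relation

variable {Ω : Type*} [Group Ω] {S : Subgroup Ω} {F : FusionSystem S} {p : ℕ}

/-- The system whose maps are the restrictions of the elements of `A ≥ Inn(S)`. -/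
def autSystem (S : Subgroup Ω) (A : Subgroup (MulAut S)) (hA : Inn S ≤ A) : FusionSystem S :=
  ofFn S (fun P f => P ≤ S ∧ ∃ α ∈ A, ∀ x ∈ P, f x = afn α x)
    (fun ⟨h, α, hα, e⟩ e' => ⟨h, α, hα, fun x hx => (e' x hx).symm.trans (e x hx)⟩)
    (fun h => h.1) (fun ⟨h, α, _, e⟩ x hx => (e x hx).symm ▸ afn_mem α (h hx))
    (fun _ ⟨_, α, _, e⟩ x hx y hy H => afn_injective α (by rw [← e x hx, ← e y hy, H]))
    (fun {_ g} hP hg => ⟨hP, conjAut S g (Subgroup.le_normalizer hg),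
      hA (mem_Inn_iff.2 ⟨g, hg, fun _ hx => afn_conjAut _ hx⟩),
      fun _ hx => (afn_conjAut _ (hP hx)).symm⟩)
    (fun _ _ ⟨h, α, hα, e⟩ ⟨_, β, hβ, e'⟩ H => ⟨h, β * α, A.mul_mem hβ hα, fun x hx => by
      simp only [afn_mul]; rw [e' _ (H x hx), e x hx]⟩)
    (fun _ ⟨h, α, hα, e⟩ => ⟨afn α⁻¹, ⟨img_le_iff.2 fun x hx => (e x hx).symm ▸ afn_mem α (h hx),
      α⁻¹, A.inv_mem hα, fun _ _ => rfl⟩, fun x hx => by rw [e x hx, afn_inv_afn]⟩)

theorem M_autSystem_iff {A : Subgroup (MulAut S)} {hA : Inn S ≤ A} {P : Subgroup Ω} {f : Ω → Ω} :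
    M (autSystem S A hA) P f ↔ P ≤ S ∧ ∃ α ∈ A, ∀ x ∈ P, f x = afn α x :=
  (M_iff_of_fn (R := fun f => P ≤ S ∧ ∃ α ∈ A, ∀ x ∈ P, f x = afn α x) (fun _ => Iff.rfl)
    fun _ _ ⟨h, α, hα, e⟩ e' => ⟨h, α, hα, fun x hx => (e' x hx).symm.trans (e x hx)⟩).trans
    ⟨fun h => h.2, fun ⟨h, α, hα, e⟩ =>
      ⟨((homOn_afn α).mono h).congr fun x hx => (e x hx).symm, h, α, hα, e⟩⟩

theorem autGroup_autSystem {A : Subgroup (MulAut S)} {hA : Inn S ≤ A} :
    (autSystem S A hA).autGroup S = A := by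
  ext α
  rw [mem_autGroup_iff le_rfl, M_autSystem_iff]
  exact ⟨fun ⟨_, β, hβ, e⟩ => aut_ext e ▸ hβ, fun h => ⟨le_rfl, α, h, fun _ _ => rfl⟩⟩

theorem autSystem_saturated [Finite S] [Fact p.Prime] (hS : IsPGroup p S) {A : Subgroup (MulAut S)}
    (hA : IsSylowIn p (Inn S) A) : (autSystem S A hA.le).IsSaturated p := by
  refine (isSaturated_iff_top_automized hS).2 ⟨⟨le_rfl, ?_⟩, fun Q hQ => receptive_of hQ.1
    fun P f hf _ R _ hR _ => ?_⟩
  · rw [autGroup_autSystem, autInducedBy_self]; exact hA.2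
  · obtain ⟨-, α, hα, e⟩ := M_autSystem_iff.1 hf
    exact ⟨afn α, M_autSystem_iff.2 ⟨hR.trans (normalizerIn_le P), α, hα, fun _ _ => rfl⟩,
      fun x hx => (e x hx).symm⟩

theorem isSylowIn_Inn_sup [Finite S] [Fact p.Prime] (hS : IsPGroup p S) {H : Subgroup (MulAut S)}
    (hH : (Nat.card H).Coprime p) : IsSylowIn p (Inn S) (Inn S ⊔ H) := by
  refine isSylowIn_of_not_dvd le_sup_left (isPGroup_Inn hS) fun h => ?_
  rw [Subgroup.relIndex_sup_left] at h
  exact (Nat.Prime.coprime_iff_not_dvd Fact.out).1 hH.symm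
    (h.trans (Subgroup.relIndex_dvd_card _ _))

/-- A cyclic step between strongly closed subgroups. -/
def CycStep (F : FusionSystem S) (A B : Subgroup Ω) : Prop :=
  F.StronglyClosed B ∧ A ≤ B ∧ ∃ x ∈ S, B = A ⊔ Subgroup.zpowers x

/-- A step of order at most `p` between strongly closed subgroups. -/
def PStep (F : FusionSystem S) (p : ℕ) (A B : Subgroup Ω) : Prop :=
  F.StronglyClosed B ∧ A ≤ B ∧ ∃ x ∈ S, x ^ p ∈ A ∧ B = A ⊔ Subgroup.zpowers x

theorem cycSeries_iff_fin : ReflTransGen (CycStep F) ⊥ S ↔ ∃ (m : ℕ) (c : Fin (m + 1) → Subgroup Ω),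
    c 0 = ⊥ ∧ c (Fin.last m) = S ∧ (∀ i : Fin (m + 1), F.StronglyClosed (c i)) ∧
      ∀ i : Fin m, c i.castSucc ≤ c i.succ ∧ ∃ x ∈ S, c i.succ = c i.castSucc ⊔ Subgroup.zpowers x := by
  rw [reflTransGen_iff_fin]
  refine exists_congr fun n => exists_congr fun T => and_congr_right fun h0 =>
    and_congr_right fun _ => ⟨fun H => ⟨fun i => ?_, fun i => (H i).2⟩, fun H i => ⟨H.1 _, H.2 i⟩⟩
  induction i using Fin.cases with
  | zero => exact h0 ▸ sc_bot F
  | succ i => exact (H i).1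

theorem img_zpowers' {Ω' : Type*} [Group Ω'] {f : Ω → Ω'} {x : Ω}
    (hf : HomOn (Subgroup.zpowers x) f) : img (Subgroup.zpowers x) f = Subgroup.zpowers (f x) := by
  ext y
  rw [hf.mem_img]
  constructor
  · rintro ⟨_, ⟨n, rfl⟩, rfl⟩
    exact ⟨n, (hf.map_zpow (Subgroup.mem_zpowers x) n).symm⟩
  · rintro ⟨n, rfl⟩
    exact ⟨_, ⟨n, rfl⟩, hf.map_zpow (Subgroup.mem_zpowers x) n⟩

theorem mem_sup_zpowers_iff {Ω' : Type*} [Group Ω'] {θ : S →* Ω'} {A : Subgroup Ω}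
    (hθ : preimageAlong θ ⊥ = A) {x y : Ω} (hx : x ∈ S) :
    y ∈ A ⊔ Subgroup.zpowers x ↔ y ∈ S ∧ fn θ y ∈ Subgroup.zpowers (fn θ x) := by
  have h := Subgroup.zpowers_le.2 hx
  rw [← hθ, sup_comm, ← pre_img_eq_sup h, mem_pre, img_zpowers' ((homOn_fn θ).mono h)]

theorem mem_iff_of_ker {Ω' : Type*} [Group Ω'] {θ : S →* Ω'} {A : Subgroup Ω}
    (hθ : preimageAlong θ ⊥ = A) {y : Ω} : y ∈ A ↔ y ∈ S ∧ fn θ y = 1 := by
  rw [← hθ, mem_pre_bot]

theorem CycStep.pSeries [hp : Fact p.Prime] (hS : IsPGroup p S) {A B : Subgroup Ω}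
    (hA : F.StronglyClosed A) (h : CycStep F A B) : ReflTransGen (PStep F p) A B := by
  obtain ⟨hB, -, x, hx, rfl⟩ := h
  obtain ⟨k, hk⟩ := hS ⟨x, hx⟩
  have hk' : x ^ p ^ k ∈ A := by
    rw [show x ^ p ^ k = 1 from congrArg Subtype.val hk]; exact A.one_mem
  clear hk
  have := sc_normal_subgroupOf hA
  have hθ := pre_bot_mk' A hA.1
  set θ := QuotientGroup.mk' (A.subgroupOf S)
  have hq : ∀ y ∈ S, ∀ n : ℕ, y ^ n ∈ A ↔ fn θ y ^ n = 1 := fun y hy n => by
    rw [← (homOn_fn θ).map_pow hy, mem_iff_of_ker hθ, and_iff_right (S.pow_mem hy n)]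
  induction k generalizing x with
  | zero =>
    rw [pow_zero, pow_one] at hk'
    rw [sup_eq_left.2 (Subgroup.zpowers_le.2 hk')]
  | succ k ih =>
    by_cases h1 : x ^ p ^ k ∈ A
    · exact ih x hx hB h1
    have hxp := S.pow_mem hx p
    have hle : A ⊔ Subgroup.zpowers (x ^ p) ≤ A ⊔ Subgroup.zpowers x :=
      sup_le_sup_left (Subgroup.zpowers_le.2 (Subgroup.npow_mem_zpowers x p)) A
    refine (ih (x ^ p) hxp ?_ (by rwa [← pow_mul, ← pow_succ'])).tail
      ⟨hB, hle, x, hx, Subgroup.mem_sup_right (Subgroup.mem_zpowers _), ?_⟩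
    · refine stronglyClosed_iff.2 ⟨hle.trans hB.1, fun P f hf y hy hyB => ?_⟩
      have h2 := hf.mem_of_sc hB hy (hle hyB)
      rw [mem_sup_zpowers_iff hθ hx] at h2
      rw [mem_sup_zpowers_iff hθ hxp] at hyB ⊢
      refine ⟨h2.1, ?_⟩
      have ho : orderOf (fn θ x) = p ^ (k + 1) :=
        orderOf_eq_prime_pow (mt (hq x hx _).2 h1) ((hq x hx _).1 hk')
      have h3 : y ^ p ^ k ∈ A := by
        rw [hq y hyB.1]
        obtain ⟨n, hn⟩ := hyB.2
        rw [← hn]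
        simp only
        rw [← zpow_natCast, ← zpow_mul, mul_comm, zpow_mul, zpow_natCast, (homOn_fn θ).map_pow hx,
          ← pow_mul, ← pow_succ', ← ho, pow_orderOf_eq_one, one_zpow]
      have h4 := hf.mem_of_sc hA (P.pow_mem hy _) h3
      rw [hf.homOn.map_pow hy, hq _ h2.1] at h4
      obtain ⟨n, hn⟩ := h2.2
      rw [← hn] at h4 ⊢
      simp only at h4 ⊢
      rw [← zpow_natCast, ← zpow_mul, ← orderOf_dvd_iff_zpow_eq_one, ho, pow_succ'] at h4
      push_cast at h4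
      obtain ⟨m, rfl⟩ := (mul_dvd_mul_iff_right
        (pow_ne_zero k (Int.natCast_ne_zero.2 hp.out.ne_zero))).1 h4
      rw [(homOn_fn θ).map_pow hx, zpow_mul, zpow_natCast]
      exact Subgroup.zpow_mem_zpowers _ m
    · rw [sup_assoc, sup_eq_right.2 (Subgroup.zpowers_le.2 (Subgroup.npow_mem_zpowers x p))]

theorem pSeries_of_cycSeries [Fact p.Prime] (hS : IsPGroup p S) {B : Subgroup Ω}
    (h : ReflTransGen (CycStep F) ⊥ B) : F.StronglyClosed B ∧ ReflTransGen (PStep F p) ⊥ B := by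
  induction h with
  | refl => exact ⟨sc_bot F, .refl⟩
  | tail _ hr ih => exact ⟨hr.1, ih.2.trans (hr.pSeries hS ih.1)⟩

section Step

variable [Finite S] [hp : Fact p.Prime] {A B : Subgroup Ω} (hA : F.StronglyClosed A)
  (h : PStep F p A B) {Ω' : Type*} [Group Ω'] {θ : S →* Ω'} (hθ : preimageAlong θ ⊥ = A)
include hA h hθ

omit [Finite S] hp hA in
theorem PStep.pow_eq_one {y : Ω} (hy : y ∈ B) : fn θ y ^ p = 1 := by
  obtain ⟨-, -, x, hx, hxp, rfl⟩ := h
  rw [mem_sup_zpowers_iff hθ hx] at hy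
  obtain ⟨n, hn⟩ := hy.2
  rw [mem_iff_of_ker hθ, (homOn_fn θ).map_pow hx] at hxp
  rw [← hn]
  simp only
  rw [← zpow_natCast, ← zpow_mul, mul_comm, zpow_mul, zpow_natCast, hxp.2, one_zpow]

omit hp in
/-- Every element of `Aut_F(S)` acts on `B/A` as a power map. -/
theorem PStep.exists_scalar {α : MulAut S} (hα : α ∈ F.autGroup S) :
    ∃ n : ℕ, ∀ y ∈ B, fn θ (afn α y) = fn θ y ^ n := by
  obtain ⟨hB, -, x, hx, -, rfl⟩ := h
  have hm := M_afn le_rfl hα
  have h1 := hm.mem_of_sc hB hx (Subgroup.mem_sup_right (Subgroup.mem_zpowers x))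
  rw [mem_sup_zpowers_iff hθ hx] at h1
  have hf : IsOfFinOrder (fn θ x) := by
    rw [fn_apply θ hx]; exact θ.isOfFinOrder (isOfFinOrder_of_finite _)
  obtain ⟨n, hn⟩ := hf.mem_powers_iff_mem_zpowers.2 h1.2
  refine ⟨n, fun y hy => ?_⟩
  rw [sup_comm] at hy
  obtain ⟨_, ⟨m, rfl⟩, t, ht, rfl⟩ := (mem_sup_iff_of_sc hA (Subgroup.zpowers_le.2 hx)).1 hy
  have hxm := S.zpow_mem hx m
  have h2 : fn θ t = 1 := (mem_pre_bot.1 (hθ.ge ht)).2
  have h3 : fn θ (afn α t) = 1 := (mem_pre_bot.1 (hθ.ge (hm.mem_of_sc hA (hA.1 ht) ht))).2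
  simp only at hn ⊢
  rw [hm.map_mul hxm (hA.1 ht), (homOn_fn θ).map_mul (hm.mem hxm) (hm.mem (hA.1 ht)),
    (homOn_fn θ).map_mul hxm (hA.1 ht), h2, h3, mul_one, mul_one, hm.homOn.map_zpow hx,
    (homOn_fn θ).map_zpow (hm.mem hx), (homOn_fn θ).map_zpow hx, ← hn, ← zpow_natCast,
    ← zpow_natCast, ← zpow_mul, ← zpow_mul, mul_comm]

omit [Finite S] hp hA hθ in
theorem PStep.scalar_pow {α : MulAut S} (hα : α ∈ F.autGroup S) {n : ℕ}
    (e : ∀ y ∈ B, fn θ (afn α y) = fn θ y ^ n) (k : ℕ) :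
    ∀ y ∈ B, fn θ (afn (α ^ k) y) = fn θ y ^ n ^ k := by
  induction k with
  | zero => simp
  | succ k ih =>
    intro y hy
    rw [pow_succ, afn_mul, ih _ (afn_mem_of_sc le_rfl hα h.1 (h.1.1 hy) hy), e y hy, ← pow_mul,
      ← pow_succ']

omit [Finite S] hp in
theorem PStep.triv_of_eq {α β : MulAut S} (hβ : β ∈ F.autGroup S)
    (e : ∀ y ∈ B, fn θ (afn α y) = fn θ (afn β y)) : ∀ y ∈ B, y⁻¹ * afn (β⁻¹ * α) y ∈ A := by
  intro y hy
  have hyS := h.1.1 hy
  have h1 := (fn_eq_iff (afn_mem β hyS) (afn_mem α hyS)).1 (e y hy).symm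
  have h2 := afn_mem_of_sc le_rfl (Subgroup.inv_mem _ hβ) hA
    (S.mul_mem (S.inv_mem (afn_mem β hyS)) (afn_mem α hyS)) (hθ.le h1)
  rwa [(homOn_afn _).map_mul (S.inv_mem (afn_mem β hyS)) (afn_mem α hyS),
    (homOn_afn _).map_inv (afn_mem β hyS), afn_inv_afn, ← afn_mul] at h2

omit hθ in
theorem PStep.triv_pow {α : MulAut S} (hα : α ∈ F.autGroup S) (k : ℕ) :
    ∀ y ∈ B, y⁻¹ * afn (α⁻¹ * α ^ p ^ k) y ∈ A := by
  have := sc_normal_subgroupOf hA
  have hθ := pre_bot_mk' A hA.1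
  obtain ⟨n, hn⟩ := h.exists_scalar hA hθ hα
  refine h.triv_of_eq hA hθ hα fun y hy => ?_
  rw [h.scalar_pow hα hn _ y hy, hn y hy, pow_eq_pow_iff_modEq]
  refine Nat.ModEq.of_dvd (orderOf_dvd_of_pow_eq_one (h.pow_eq_one hθ hy)) ?_
  rw [← ZMod.natCast_eq_natCast_iff, Nat.cast_pow, ZMod.pow_card_pow]

omit hθ hp in
theorem PStep.triv_comm {α β : MulAut S} (hα : α ∈ F.autGroup S) (hβ : β ∈ F.autGroup S) :
    ∀ y ∈ B, y⁻¹ * afn ((β * α)⁻¹ * (α * β)) y ∈ A := by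
  have := sc_normal_subgroupOf hA
  have hθ := pre_bot_mk' A hA.1
  obtain ⟨n, hn⟩ := h.exists_scalar hA hθ hα
  obtain ⟨m, hm⟩ := h.exists_scalar hA hθ hβ
  refine h.triv_of_eq hA hθ (Subgroup.mul_mem _ hβ hα) fun y hy => ?_
  rw [afn_mul, afn_mul, hn _ (afn_mem_of_sc le_rfl hβ h.1 (h.1.1 hy) hy),
    hm _ (afn_mem_of_sc le_rfl hα h.1 (h.1.1 hy) hy), hn y hy, hm y hy, ← pow_mul, ← pow_mul,
    mul_comm]

omit hθ in
theorem PStep.commutator_le (hS : IsPGroup p S) : ⁅B, S⁆ ≤ A := by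
  refine Subgroup.commutator_le.2 fun y hy s hs => ?_
  have hN := Subgroup.le_normalizer (S.inv_mem hs)
  obtain ⟨k, hk⟩ := isPGroup_Inn hS ⟨conjAut S s⁻¹ hN,
    mem_Inn_iff.2 ⟨s⁻¹, S.inv_mem hs, fun _ hx => afn_conjAut _ hx⟩⟩
  have := h.triv_pow hA (conjAut_mem_autGroup le_rfl (S.inv_mem hs) hN) k y⁻¹ (B.inv_mem hy)
  rw [show conjAut S s⁻¹ hN ^ p ^ k = 1 from congrArg Subtype.val hk, mul_one, ← conjAut_inv,
    afn_conjAut _ (S.inv_mem (h.1.1 hy))] at this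
  rw [commutatorElement_def]
  convert this using 1; group

end Step

theorem exists_pow_fix_of_pSeries [Finite S] (hS : IsPGroup p S) {B : Subgroup Ω}
    (h : ReflTransGen (PStep F p) ⊥ B) {γ : MulAut S}
    (hγ : ∀ A B, F.StronglyClosed A → PStep F p A B → ∀ y ∈ B, y⁻¹ * afn γ y ∈ A) :
    F.StronglyClosed B ∧ ∃ k, ∀ x ∈ B.subgroupOf S, (γ ^ p ^ k) x = x := by
  induction h with
  | refl => exact ⟨sc_bot F, 0, fun x hx => by rw [show x = 1 from Subtype.ext hx, map_one]⟩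
  | @tail A B _ hr ih =>
    refine ⟨hr.1, TrivOn.exists_pow_fix hS (Subgroup.comap_mono hr.2.1) (fun x hx => ?_) ih.2⟩
    have := hγ A B ih.1 hr x hx
    rwa [afn_coe] at this

theorem exists_pow_eq_one_of_pSeries [Finite S] (hS : IsPGroup p S)
    (h : ReflTransGen (PStep F p) ⊥ S) {γ : MulAut S}
    (hγ : ∀ A B, F.StronglyClosed A → PStep F p A B → ∀ y ∈ B, y⁻¹ * afn γ y ∈ A) :
    ∃ k, γ ^ p ^ k = 1 := by
  obtain ⟨k, hk⟩ := (exists_pow_fix_of_pSeries hS h hγ).2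
  exact ⟨k, MulEquiv.ext fun x => hk x x.2⟩

theorem eq_one_of_coprime_of_pow {G : Type*} [Group G] {H : Subgroup G}
    (hH : (Nat.card H).Coprime p) {x : G} (hx : x ∈ H) {k : ℕ} (hk : x ^ p ^ k = 1) : x = 1 :=
  orderOf_eq_one_iff.1 (Nat.eq_one_of_dvd_coprimes (hH.pow_right k)
    (Subgroup.orderOf_dvd_natCard H hx) (orderOf_dvd_of_pow_eq_one hk))

theorem isNormal_top_of_cycSeries [Finite S] [Fact p.Prime] (hS : IsPGroup p S)
    (hF : F.IsSaturated p) (h : ReflTransGen (CycStep F) ⊥ S) : F.IsNormal S := by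
  obtain ⟨n, c, h0, hn, H⟩ := reflTransGen_iff_nat.1 (pSeries_of_cycSeries hS h).2
  have hc : ∀ i < n, F.StronglyClosed (c i) := fun i hi => by
    cases i with
    | zero => exact h0 ▸ sc_bot F
    | succ i => exact (H i (i.lt_succ_self.trans hi)).1
  exact isNormal_of_series hS hF (sc_top F) c n h0 hn (fun i hi => (H i hi).2.1)
    (fun i hi => (H i hi).commutator_le (hc i hi) hS) fun i hi => sc_weaklyClosed (hc i hi)

theorem comm_of_cycSeries [Finite S] [hp : Fact p.Prime] (hS : IsPGroup p S)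
    (h : ReflTransGen (CycStep F) ⊥ S) {H : Subgroup (MulAut S)} (hle : H ≤ F.autGroup S)
    (hH : (Nat.card H).Coprime p) : IsMulCommutative H ∧ ∀ α ∈ H, α ^ (p - 1) = 1 := by
  have h' := (pSeries_of_cycSeries hS h).2
  refine ⟨⟨⟨fun α β => Subtype.ext ?_⟩⟩, fun α hα => ?_⟩
  · obtain ⟨k, hk⟩ := exists_pow_eq_one_of_pSeries hS h'
      fun A B hA hB => hB.triv_comm hA (hle α.2) (hle β.2)
    exact (inv_mul_eq_one.1 (eq_one_of_coprime_of_pow hH
      (H.mul_mem (H.inv_mem (H.mul_mem β.2 α.2)) (H.mul_mem α.2 β.2)) hk)).symm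
  · obtain ⟨k, hk⟩ := exists_pow_eq_one_of_pSeries hS h'
      fun A B hA hB => hB.triv_pow hA (hle hα) 1
    have := eq_one_of_coprime_of_pow hH (H.mul_mem (H.inv_mem hα) (H.pow_mem hα _)) hk
    rwa [pow_one, ← Nat.sub_add_cancel hp.out.pos, pow_succ', inv_mul_cancel_left] at this

theorem cycSeries_of_isNormal [Finite S] [hp : Fact p.Prime] (hS : IsPGroup p S)
    (hF : F.IsSaturated p) (hn : F.IsNormal S)
    (h : ∀ H : Subgroup (MulAut S), (Nat.card H).Coprime p →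
      IsMulCommutative H ∧ ∀ α ∈ H, α ^ (p - 1) = 1) : ReflTransGen (CycStep F) ⊥ S := by
  have hs := sat_sylow_top hS hF
  have := Inn_subgroupOf_normal (F.autGroup S)
  have hco : ((Inn S).subgroupOf (F.autGroup S)).index.Coprime p :=
    ((Nat.Prime.coprime_iff_not_dvd hp.out).2 hs.not_dvd_relIndex).symm
  obtain ⟨K, hK⟩ := Subgroup.exists_right_complement'_of_coprime
    (N := (Inn S).subgroupOf (F.autGroup S))
    (Fit.coprime_card_of_isPGroup (Fit.isPGroup_subgroupOf (isPGroup_Inn hS) _) hco)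
  obtain ⟨h1, h2⟩ := h (K.map (F.autGroup S).subtype)
    (by rw [Fit.card_map_subtype, ← hK.symm.index_eq_card]; exact hco)
  set H := K.map (F.autGroup S).subtype
  have key : ∀ R, R ≤ S → F.StronglyClosed R → ReflTransGen (CycStep F) R S := by
    refine induction_card_down fun R hRS ih hR => ?_
    by_cases e : R = S
    · rw [e]
    have := sc_normal_subgroupOf hR
    obtain ⟨x, hx1, hx2, hx3⟩ := exists_common_eigen_mod hS (fun α : H => (α : MulAut S).toMonoidHom)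
      (fun α => (α : MulAut S).surjective)
      (fun α β x => MulEquiv.congr_fun (congrArg Subtype.val (h1.is_comm.comm α β)) x)
      (fun α x => by
        have : (α : MulAut S) ^ p = α := by
          rw [← Nat.sub_add_cancel hp.out.pos, pow_succ, h2 _ α.2, one_mul]
        have h3 : ∀ n (x : S), ((α : MulAut S).toMonoidHom)^[n] x = ((α : MulAut S) ^ n) x := by
          intro n
          induction n with
          | zero => exact fun _ => rfl
          | succ n ih => intro x; rw [Function.iterate_succ_apply, ih, pow_succ]; rfl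
        rw [h3, this]; rfl)
      (R.subgroupOf S) (fun e' => e (le_antisymm hRS (Subgroup.subgroupOf_eq_top.1 e')))
      fun α y hy => by
        have := afn_mem_of_sc le_rfl (Subgroup.map_subtype_le _ α.2) hR y.2 hy
        rwa [afn_coe] at this
    have hm : ∀ y : S, y ∈ R.subgroupOf S ⊔ Subgroup.zpowers x →
        (y : Ω) ∈ R ⊔ Subgroup.zpowers (x : Ω) := fun y hy => by
      have := Subgroup.mem_map_of_mem S.subtype hy
      rwa [Subgroup.map_sup, Subgroup.map_subgroupOf_eq_of_le hRS, MonoidHom.map_zpowers] at this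
    have hle : R ⊔ Subgroup.zpowers (x : Ω) ≤ S := sup_le hRS (Subgroup.zpowers_le.2 x.2)
    have hinv : ∀ α ∈ F.autGroup S, afn α x ∈ R ⊔ Subgroup.zpowers (x : Ω) →
        ∀ y ∈ R ⊔ Subgroup.zpowers (x : Ω), afn α y ∈ R ⊔ Subgroup.zpowers (x : Ω) :=
      fun α hα hx => ((homOn_afn α).mono hle).mem_of_sup
        (fun y hy => Subgroup.mem_sup_left (afn_mem_of_sc le_rfl hα hR (hRS hy) hy)) (by
          rintro _ ⟨n, rfl⟩
          simp only
          rw [(homOn_afn α).map_zpow x.2]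
          exact Subgroup.zpow_mem _ hx n)
    have hsc : F.StronglyClosed (R ⊔ Subgroup.zpowers (x : Ω)) := by
      refine stronglyClosed_iff.2 ⟨hle, fun P f hf y hy hyR => ?_⟩
      obtain ⟨α, hα, e⟩ := exists_aut_of_isNormal hn hf.le hf
      obtain ⟨⟨⟨ι, hι⟩, ⟨κ, hκ⟩⟩, e'⟩ := hK.2 ⟨α, hα⟩
      have e'' : (ι : MulAut S) * κ = α := congrArg Subtype.val e'
      rw [← e y hy, ← e'', afn_mul]
      obtain ⟨g, hg, eg⟩ := mem_Inn_iff.1 (Subgroup.mem_subgroupOf.1 hι)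
      refine hinv _ ι.2 ?_ _ (hinv _ κ.2 ?_ y hyR)
      · rw [eg _ x.2]; exact hm _ (hx2 ⟨g, hg⟩)
      · rw [afn_coe]; exact hm _ (hx3 ⟨κ, κ, hκ, rfl⟩)
    refine ReflTransGen.head ⟨hsc, le_sup_left, x, x.2, rfl⟩
      (ih _ hle (card_lt_of_lt' hle (left_lt_sup.2 fun h => hx1 ?_)) hsc)
    exact h (Subgroup.mem_zpowers _)
  exact key ⊥ bot_le (sc_bot F)

theorem forall_cycSeries_iff [Finite S] [Fact p.Prime] (hS : IsPGroup p S) :
    (∀ F : FusionSystem S, F.IsSaturated p → ReflTransGen (CycStep F) ⊥ S) ↔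
      (∀ F : FusionSystem S, F.IsSaturated p → F.IsNormal S) ∧
        ∀ H : Subgroup (MulAut S), (Nat.card H).Coprime p →
          IsMulCommutative H ∧ ∀ h ∈ H, h ^ (p - 1) = 1 := by
  refine ⟨fun h => ⟨fun F hF => isNormal_top_of_cycSeries hS hF (h F hF), fun H hH => ?_⟩,
    fun h F hF => cycSeries_of_isNormal hS hF (h.1 F hF) h.2⟩
  have hs := isSylowIn_Inn_sup hS hH
  exact comm_of_cycSeries hS (h _ (autSystem_saturated hS hs))
    (le_sup_right.trans autGroup_autSystem.ge) hH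

end Cfsg.Agent.Fus2
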