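import Cfsg.Agent.Lib.Fus2.Fit
import Cfsg.Agent.Lib.Asch.Prod

/-!
The normalizer `N_E(X)` of an arbitrary fully normalized subgroup `X` in a normal subsystem `E`.
-/

set_option autoImplicit false

namespace Cfsg.Agent.Fus2

open Cfsg Cfsg.FusionSystem Cfsg.Agent.Fus Cfsg.Agent.Asch

variable {Ω : Type*} [Group Ω] {S S' T R U X Y : Subgroup Ω} {F : FusionSystem S}
  {E : FusionSystem T} {D : FusionSystem R} {C : FusionSystem U} {p : ℕ}

/-- The largest subgroup of `A ∩ B` normalized by `A`. -/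
def coreIn {G : Type*} [Group G] (A B : Subgroup G) : Subgroup G where
  carrier := {a | a ∈ A ∧ ∀ β ∈ A, β * a * β⁻¹ ∈ B}
  one_mem' := ⟨A.one_mem, fun β _ => by simp⟩
  mul_mem' := fun {a b} ha hb => ⟨A.mul_mem ha.1 hb.1, fun β hβ => by
    simpa [mul_assoc] using B.mul_mem (ha.2 β hβ) (hb.2 β hβ)⟩
  inv_mem' := fun {a} ha => ⟨A.inv_mem ha.1, fun β hβ => by
    simpa [mul_assoc] using B.inv_mem (ha.2 β hβ)⟩

section Sat

variable [Finite S] [Fact p.Prime] (hS : IsPGroup p S)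
include hS

/-- The Frattini condition through an intermediate system. -/
theorem frat_of_mid (hF : F.IsSaturated p) (hT : F.StronglyClosed T) (hi : Asch.AutInv E F)
    {F' : FusionSystem S'} (hF' : F'.IsSubsystemOf F) (hfr : Frat E F')
    (h : ∀ R, R ≤ T → ∀ β ∈ F.autGroup R, ∀ α ∈ autInducedBy T R, β * α * β⁻¹ ∈ F'.autGroup R) :
    Frat E F := by
  have := finite_of_le hT.1
  have hi' := fus_autInv hT.1 hi
  refine frat_of_frattini hT.1 (frattini_of_isSubsystemOf hi' (M_of_sc_induction hS hF hT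
    (fun α hα => (Fus2.mem_autGroup_iff le_rfl).2 (M_frattiniSystem_afn _ hα))
    fun R hRT hR ih α hα => ?_))
  have : Finite R := finite_of_le hR.1
  have := finite_mulAut R
  obtain ⟨a, ha, k, hk, e⟩ := exists_mul_extends hS hF hT.1 hR
    (A := coreIn (F.autGroup R) (F'.autGroup R)) (fun _ h => h.1)
    (fun γ hγ => mem_normalizer_of_conj_mem fun a ha => ⟨Subgroup.mul_mem _
      (Subgroup.mul_mem _ hγ ha.1) (Subgroup.inv_mem _ hγ), fun β hβ => by
        simpa [mul_assoc] using ha.2 _ (Subgroup.mul_mem _ hβ hγ)⟩)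
    (fun a ha => ⟨autInducedBy_le_autGroup hR.1 (autInducedBy_mono hT.1 R ha),
      fun β hβ => h R hRT.le β hβ a ha⟩) hα
  rw [sup_eq_right.2 (le_normalizerIn hRT.le)] at hk
  have h1 := (ih _ k (normalizerIn_le R) (card_lt_of_lt' (normalizerIn_le R)
    (lt_inf_normalizer (isPGroup_of_le hS hT.1) hRT)) hk).mono (le_normalizerIn hRT.le)
  have h2 := h1.mem_autGroup fun x hx => (e x hx).symm
  have h3 : a ∈ (frattiniSystem hi').autGroup R := by
    by_cases hRS : R ≤ S'
    · have h4 : a ∈ F'.autGroup R := by simpa using ha.2 1 (Subgroup.one_mem _)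
      obtain ⟨b, f₀, hb, hf₀, e⟩ := hfr R _ hRT.le (M_afn hRS h4)
      have hb' := isSubsystemOf_iff.1 hF' _ _ hb
      obtain ⟨β, hβ, eβ⟩ := hb'.exists_aut' fun x hx => hb'.mem_of_sc hT hx hx
      exact (Fus2.mem_autGroup_iff hRT.le).2 ((M_frattiniSystem_iff hi').2
        ⟨β, hβ, f₀, hf₀, fun x hx => by rw [e x hx, eβ _ (hf₀.mem hx)]⟩)
    · have h4 : a ∈ F'.autGroup R := by simpa using ha.2 1 (Subgroup.one_mem _)
      rw [autGroup_eq_bot_of_not_le hRS, Subgroup.mem_bot] at h4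
      exact h4 ▸ Subgroup.one_mem _
  simpa using Subgroup.mul_mem _ (Subgroup.inv_mem _ h3) h2

/-- **The normalizer in a normal subsystem.** -/
theorem exists_nor_normalizer (h : Nor p E F) (hX : F.IsFullyNormalized X)
    {N : FusionSystem (normalizerIn S X)} (hN : F.IsNormalizerSystem X N) :
    ∃ D : FusionSystem (T ⊓ normalizerIn S X : Subgroup Ω), Nor p D N ∧ D.IsSubsystemOf E := by
  have hd := h.locData hS
  have hsat := (hd.saturated hS le_rfl h.le).1
  have hi := h.index_prodSys hS le_rfl h.le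
  have hDF : (prodSys p F T (fun U f => M E U f) le_rfl).IsSubsystemOf F :=
    isSubsystemOf_iff.2 fun _ _ => M_of_prodSys
  have hTG : ∀ {P f}, TG p F T (fun U f => M E U f) T P f →
      M (prodSys p F T (fun U f => M E U f) le_rfl) P f := fun hf =>
    hf.prodSys h.le h.le hf.le
  have hTG' : ∀ {P f}, M (prodSys p F T (fun U f => M E U f) le_rfl) P f → PPr p P f →
      TG p F T (fun U f => M E U f) T P f := fun hf hp =>
    TG.of_ppr hS hd le_rfl ((M_prodSys_iff h.le).1 hf).2 hp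
  generalize prodSys p F T (fun U f => M E U f) le_rfl = D at hsat hi hDF hTG hTG'
  have hN' := isNormalizerSystem_normalizerSystem D hX.1
  have hN's := normalizer_saturated hS hsat
    (isFullyNormalized_sub_of_sc hS h.satF (sc_top F) hDF hX.1 hX) hN'
  have hNs := normalizer_saturated hS h.satF hX hN
  generalize normalizerSystem D hX.1 = N' at hN' hN's
  have hS' := isPGroup_of_le hS (normalizerIn_le (S := S) X)
  have hsub : N'.IsSubsystemOf N := isSubsystemOf_iff.2 fun P f hf => by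
    obtain ⟨h1, g, hg, e⟩ := (M_normalizer_iff hN').1 hf
    exact (M_normalizer_iff hN).2 ⟨h1, g, isSubsystemOf_iff.1 hDF _ _ hg, e⟩
  have hsc := sc_inf_sub (normalizer_isSubsystemOf hN) h.sc
  obtain ⟨D₀, hD₀, hi₀⟩ := Biset.exists_pPowerIndex (T ⊓ normalizerIn S X) _ _ hS' N' hN's
    inf_le_right (le_inf ((hyp_mono (normalizer_isSubsystemOf hN')).trans hi.2.1) (hyp_le _ _)) rfl
  have hn := nor_of_pPowerIndex hS' hN's inf_le_right (fun s hs x hx => sc_conj_mem hsc hs hx)
    hD₀ hi₀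
  have key : ∀ {P Y : Subgroup Ω} {f g a f' : Ω → Ω},
      TG p F T (fun U f => M E U f) T (P ⊔ X) g → (∀ x ∈ P, g x = f x) →
      (∀ x ∈ X, g x ∈ X) → M N Y a → P ≤ Y → (∀ x ∈ P, f x ∈ Y) →
      (∀ x ∈ P, f' (a x) = a (f x)) → M N' (img P a) f' := by
    intro P Y f g a f' hg eg hgX ha hP hm e
    obtain ⟨hY, b, hb, eb, hbX⟩ := (M_normalizer_iff hN).1 ha
    have hle : P ⊔ X ≤ Y ⊔ X := sup_le_sup_right hP X
    obtain ⟨g', eg'⟩ := hb.exists_rel hle g
    have h1 := hTG (hg.strong hS hd hb hle ((hg.M h.le).homOn.mem_of_sup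
      (fun x hx => by rw [eg x hx]; exact Subgroup.mem_sup_left (hm x hx))
      fun x hx => Subgroup.mem_sup_right (hgX x hx)) eg')
    rw [(hb.mono hle).homOn.img_sup, hbX, img_congr fun x hx => eb x (hP hx)] at h1
    refine (M_normalizer_iff hN').2 ⟨(ha.mono hP).img_le, g', h1, fun y hy => ?_,
      (h1.mono le_sup_right).img_eq_self fun y hy => ?_⟩
    · obtain ⟨x, hx, rfl⟩ := (ha.mono hP).mem_img.1 hy
      rw [e x hx, ← eb x (hP hx), eg' x (Subgroup.mem_sup_left hx), eg x hx, eb _ (hm x hx)]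
    · obtain ⟨x, hx, rfl⟩ := (hb.mono le_sup_right).mem_img.1 (hbX.ge hy)
      rw [eg' x (Subgroup.mem_sup_right hx)]
      exact hbX.le (mem_img_of_mem b (hgX x hx))
  have := finite_of_le hsc.1
  have hinv : Asch.AutInv D₀ N := by
    refine autInv_of_pull hsc fun a ha => sub_of_ppr (isPGroup_of_le hS' inf_le_right) hD₀ le_rfl
      fun P f _ _ _ hf hp => ?_
    obtain ⟨f', e⟩ := ha.exists_rel hf.le f
    refine M_pull_of hf.le (fun _ => hf.mem) ((hp.conj (ha.mono hf.le).homOn e).M_of_index hi₀ ?_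
      (img_le_iff.2 fun x hx => ha.mem_of_sc hsc (hf.le hx) (hf.le hx))) e
    obtain ⟨-, g, hg, eg, hgX⟩ := (M_normalizer_iff hN').1 (hn.sub hf)
    have hgX' : ∀ x ∈ X, g x ∈ X := fun x hx => hgX.le (mem_img_of_mem g hx)
    have hm : ∀ x ∈ P ⊔ X, g x ∈ P ⊔ X := hg.homOn.mem_of_sup
      (fun x hx => by rw [eg x hx]; exact Subgroup.mem_sup_left (hp.maps x hx))
      fun x hx => Subgroup.mem_sup_right (hgX' x hx)
    obtain ⟨n, hn, en⟩ := (hp.congr fun x hx => (eg x hx).symm).exists_pow le_sup_left hg hm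
    exact key (hTG' (Asch.M.iterate hg hm n) hn) (fun x hx => by rw [en x hx, eg x hx])
      (iterate_maps hgX' n) ha hf.le (fun _ => hf.mem) e
  refine ⟨D₀, ⟨hD₀, hNs, fun hf => isSubsystemOf_iff.1 hsub _ _ (hn.sub hf), hsc, hinv,
    frat_of_mid hS' hNs hsc hinv hsub hn.frat fun R hR β hβ α hα => ?_, fun a ha => ?_⟩,
    sub_of_pPowerIndex hS hD₀ (sub_trans hn.isSubsystemOf (normalizer_isSubsystemOf hN'))
      inf_le_left hi⟩
  · obtain ⟨t, ht, e⟩ := Fus2.mem_autInducedBy_iff.1 hα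
    have hR' := hR.trans hsc.1
    have := key (P := R) (f := afn α) (f' := afn (β * α * β⁻¹))
      (GenA.conj (GenA.base (sup_le (hR'.trans (normalizerIn_le X)) hX.1) fun _ _ => rfl) ht.1
        fun _ _ => rfl) (fun x hx => (e x hx).symm)
      (fun x hx => conj_mem_of_mem_normalizerIn ht.2 hx) (M_afn hR' hβ) le_rfl
      (fun x hx => afn_mem α hx) fun x _ => by rw [afn_mul, afn_mul, afn_inv_afn]
    rw [img_afn] at this
    exact (Fus2.mem_autGroup_iff hR').2 this
  · obtain ⟨b, hb, e⟩ := hn.ext a ha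
    exact ⟨b, isSubsystemOf_iff.1 hsub _ _ hb, e⟩

/-- A normal subsystem is normal in the centralizer of a fully centralized subgroup centralizing
it. -/
theorem nor_cent_of_cent (h : Nor p E F) (hY : F.IsFullyCentralized Y) (hc : Cent E F Y)
    (hC : IsNK F Y ⊥ C) : Nor p E C := by
  obtain rfl : U = centralizerIn S Y := hC.1.trans (normK_bot Y)
  have hC' := isCentralizerSystem_iff.2 hC
  have hs := centralizer_saturated hS h.satF hY hC'
  have hU := isPGroup_of_le hS hC.le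
  have hsub := (cent_iff_sub hC').1 hc
  have hsc := sc_sub hC.isSubsystemOf h.sc (le_of_isSubsystemOf hsub)
  refine (Asch.isWeaklyNormalIn_iff.1 ⟨h.satE, hs, isInvariantIn_of_strongInv hU hs hsub hsc
    fun P Q f g hPQ hQ hf hm hg => ?_⟩).nor (extC_of_ppr hU h.satE hsc fun a ha hp => ?_)
  · have hg' := isSubsystemOf_iff.1 hC.isSubsystemOf _ _ hg
    obtain ⟨f', e⟩ := hg'.exists_rel hPQ f
    exact ⟨f', h.wnor.strong hQ hg' hf hPQ hm e, e⟩
  · obtain ⟨b, hb, hbp, e, ht⟩ := h.exists_ppr_ext ha hp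
    have hle : centralizerIn (centralizerIn S Y) T ≤ centralizerIn S T :=
      fun x hx => ⟨hx.1.1, hx.2⟩
    have hYT : Y ≤ T ⊔ centralizerIn S T := hc.le.trans le_sup_right
    refine ⟨b, (M_centralizer_iff hC').2 ⟨sup_centralizerIn_le hsc.1, b,
      hb.mono (sup_le (sup_le_sup_left hle T) hYT), fun _ _ => rfl, fun y hy => ?_⟩, e,
      fun c hc => ht c (Subgroup.mem_sup_right (hle hc))⟩
    exact (h.le_cenE hS hc hy).2 T b (tCen_top h.sc) hb hbp
      ⟨(ha.mono inf_le_right).congr fun x hx => (e x hx.2).symm, ht⟩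

end Sat

end Cfsg.Agent.Fus2
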