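import Mathlib

/-! Groups acting on graphs through a free group extended by a group of graph symmetries. -/

set_option autoImplicit false
universe u

namespace Cfsg.Agent.Fus2.VFree

open FreeGroup

variable {A : Type u} [Group A] {E : Type u} [MulAction A E]

/-- action on letters -/
def actL (a : A) (x : E × Bool) : E × Bool := (a • x.1, x.2)

/-- action on words -/
def actW (a : A) (L : List (E × Bool)) : List (E × Bool) := L.map (actL a)

/-- the action of `A` on the free group -/
def phi (A : Type u) [Group A] (E : Type u) [MulAction A E] : A →* MulAut (FreeGroup E) where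
  toFun a := freeGroupCongr (MulAction.toPerm a)
  map_one' := by
    apply MulEquiv.toMonoidHom_injective
    apply FreeGroup.ext_hom
    intro e
    simp [freeGroupCongr]
  map_mul' a b := by
    apply MulEquiv.toMonoidHom_injective
    apply FreeGroup.ext_hom
    intro e
    simp [freeGroupCongr, mul_smul]

theorem phi_mk (a : A) (L : List (E × Bool)) : phi A E a (mk L) = mk (actW a L) := by
  change FreeGroup.map (MulAction.toPerm a) (mk L) = _
  rw [FreeGroup.map.mk]
  rfl

theorem actL_mul (a b : A) (x : E × Bool) : actL (a * b) x = actL a (actL b x) := by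
  simp [actL, mul_smul]

theorem actL_one (x : E × Bool) : actL (1 : A) x = x := by simp [actL]

theorem actL_inj {a : A} {x y : E × Bool} (h : actL a x = actL a y) : x = y := by
  have := congrArg (actL a⁻¹) h
  rwa [← actL_mul, ← actL_mul, inv_mul_cancel, actL_one, actL_one] at this

theorem isReduced_actW (a : A) {L : List (E × Bool)} (h : IsReduced L) : IsReduced (actW a L) := by
  unfold FreeGroup.IsReduced actW at *
  rw [List.isChain_map]
  refine h.imp ?_
  intro x y hxy h1
  exact hxy (MulAction.injective a h1)

open Classical in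
/-- the reduced word -/
noncomputable def wd (w : FreeGroup E) : List (E × Bool) := w.toWord

theorem mk_wd (w : FreeGroup E) : mk (wd w) = w := by
  classical
  unfold wd; convert FreeGroup.mk_toWord

theorem isReduced_wd (w : FreeGroup E) : IsReduced (wd w) := by
  classical
  unfold wd; convert FreeGroup.isReduced_toWord

theorem wd_mk {L : List (E × Bool)} (h : IsReduced L) : wd (mk L) = L := by
  unfold wd
  rw [@FreeGroup.toWord_mk _ _ (fun a b => Classical.propDecidable (a = b))]
  exact @IsReduced.reduce_eq _ _ (fun a b => Classical.propDecidable (a = b)) h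

theorem red_wd (L : List (E × Bool)) : Red L (wd (mk L)) := by
  unfold wd
  rw [@FreeGroup.toWord_mk _ _ (fun a b => Classical.propDecidable (a = b))]
  exact @reduce.red _ _ (fun a b => Classical.propDecidable (a = b))

theorem wd_phi (a : A) (w : FreeGroup E) : wd (phi A E a w) = actW a (wd w) := by
  conv_lhs => rw [← mk_wd w, phi_mk]
  exact wd_mk (isReduced_actW a (isReduced_wd w))

theorem wd_eq_nil {w : FreeGroup E} : wd w = [] ↔ w = 1 := by
  constructor
  · intro h; rw [← mk_wd w, h]; rfl
  · rintro rfl; exact wd_mk IsReduced.nil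

/-- the formal inverse of a letter -/
def invL (x : E × Bool) : E × Bool := (x.1, !x.2)

theorem invL_ne (a : A) (x : E × Bool) : x ≠ invL (actL a x) := by
  intro h
  have := congrArg Prod.snd h
  simp [invL, actL] at this

theorem invL_inj {x y : E × Bool} (h : invL x = invL y) : x = y := by
  obtain ⟨x1, x2⟩ := x
  obtain ⟨y1, y2⟩ := y
  simp only [invL, Prod.mk.injEq, Bool.not_inj_iff] at h
  rw [h.1, h.2]

theorem actL_invL (a : A) (x : E × Bool) : actL a (invL x) = invL (actL a x) := rfl

theorem wd_mul_of {v w : FreeGroup E} {x y : E × Bool} (hx : (wd v).getLast? = some x)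
    (hy : (wd w).head? = some y) (hne : x ≠ invL y) : wd (v * w) = wd v ++ wd w := by
  conv_lhs => rw [← mk_wd v, ← mk_wd w, mul_mk]
  apply wd_mk
  unfold FreeGroup.IsReduced
  rw [List.isChain_append]
  refine ⟨isReduced_wd v, isReduced_wd w, ?_⟩
  intro x' hx' y' hy' h1
  rw [hx] at hx'; rw [hy] at hy'
  obtain rfl : x = x' := by simpa using hx'
  obtain rfl : y = y' := by simpa using hy'
  by_contra h2
  apply hne
  obtain ⟨x1, x2⟩ := x
  obtain ⟨y1, y2⟩ := y
  simp only [invL, Prod.mk.injEq]
  refine ⟨h1, ?_⟩
  cases x2 <;> cases y2 <;> simp_all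

/-- The ambient group. -/
abbrev W (A : Type u) [Group A] (E : Type u) [MulAction A E] := FreeGroup E ⋊[phi A E] A

section Finite

variable (H : Subgroup (W A E)) [Finite H]

theorem last_eq {h : W A E} (hh : h ∈ H) {x : E × Bool} (hx : (wd h.left).head? = some x) :
    (wd h.left).getLast? = some (invL (actL h.right x)) := by
  classical
  by_contra hcon
  let B : Set H := {k | ∃ x, (wd k.1.left).head? = some x ∧
    (wd k.1.left).getLast? ≠ some (invL (actL k.1.right x))}
  have hB : B.Nonempty := ⟨⟨h, hh⟩, x, hx, hcon⟩
  obtain ⟨k, ⟨y, hy, hy'⟩, hmax⟩ := Set.exists_max_image B (fun k => (wd k.1.left).length)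
    (Set.toFinite _) hB
  have hne : wd k.1.left ≠ [] := by intro h0; rw [h0] at hy; simp at hy
  obtain ⟨z, hz⟩ : ∃ z, (wd k.1.left).getLast? = some z := ⟨_, List.getLast?_eq_some_getLast hne⟩
  have hy2 : (wd (phi A E k.1.right k.1.left)).head? = some (actL k.1.right y) := by
    rw [wd_phi, actW, List.head?_map, hy]; rfl
  have hzy : z ≠ invL (actL k.1.right y) := by
    intro h0; rw [hz, h0] at hy'; exact hy' rfl
  have hw := wd_mul_of hz hy2 hzy
  have hkk : (k * k).1.left = k.1.left * phi A E k.1.right k.1.left := rfl
  have hmem : k * k ∈ B := by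
    refine ⟨y, ?_, ?_⟩
    · rw [hkk, hw, List.head?_append, hy]; rfl
    · rw [hkk, hw, List.getLast?_append, wd_phi, actW, List.getLast?_map, hz]
      simp only [Option.map_some, Option.some_or, ne_eq, Option.some.injEq]
      intro h0
      apply hzy
      have : (k * k).1.right = k.1.right * k.1.right := rfl
      rw [this, actL_mul, ← actL_invL] at h0
      exact actL_inj h0
  have := hmax _ hmem
  beta_reduce at this
  rw [hkk, hw, List.length_append, wd_phi, actW, List.length_map] at this
  have h0 : 0 < (wd k.1.left).length := List.length_pos_iff.2 hne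
  omega

theorem head_eq {h k : W A E} (hh : h ∈ H) (hk : k ∈ H) {x y : E × Bool}
    (hx : (wd h.left).head? = some x) (hy : (wd k.left).head? = some y) : x = y := by
  by_contra hne
  have h1 := last_eq H hh hx
  have h2 := last_eq H hk hy
  have hy2 : (wd (phi A E h.right k.left)).head? = some (actL h.right y) := by
    rw [wd_phi, actW, List.head?_map, hy]; rfl
  have hw := wd_mul_of h1 hy2 (fun h0 => hne (actL_inj (invL_inj h0)))
  have hkk : (h * k).left = h.left * phi A E h.right k.left := rfl
  have h3 : (wd (h * k).left).head? = some x := by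
    rw [hkk, hw, List.head?_append, hx]; rfl
  have h4 := last_eq H (H.mul_mem hh hk) h3
  rw [hkk, hw, List.getLast?_append, wd_phi, actW, List.getLast?_map, h2] at h4
  simp only [Option.map_some, Option.some_or, Option.some.injEq] at h4
  rw [SemidirectProduct.mul_right, actL_mul, actL_invL] at h4
  exact hne (actL_inj (actL_inj (invL_inj h4))).symm

theorem fix_head {h k : W A E} (hh : h ∈ H) (hk : k ∈ H) {x : E × Bool}
    (hx : (wd h.left).head? = some x) (hk1 : k.left = 1) : actL k.right x = x := by
  have hkk : (k * h).left = phi A E k.right h.left := by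
    rw [SemidirectProduct.mul_left, hk1, one_mul]
  have h3 : (wd (k * h).left).head? = some (actL k.right x) := by
    rw [hkk, wd_phi, actW, List.head?_map, hx]; rfl
  exact head_eq H (H.mul_mem hk hh) hh h3 hx

theorem shape {h : W A E} (hh : h ∈ H) {x : E × Bool} (hx : (wd h.left).head? = some x) :
    ∃ M, wd h.left = x :: (M ++ [invL (actL h.right x)]) := by
  have h1 := last_eq H hh hx
  match hL : wd h.left with
  | [] => rw [hL] at hx; simp at hx
  | y :: L =>
    rw [hL] at hx h1
    obtain rfl : y = x := by simpa using hx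
    rcases List.eq_nil_or_concat L with rfl | ⟨M, z, rfl⟩
    · exact absurd (by simpa using h1) (invL_ne h.right y)
    · refine ⟨M, ?_⟩
      have : z = invL (actL h.right y) := by
        rw [List.concat_eq_append, ← List.cons_append, List.getLast?_append] at h1
        simpa using h1
      rw [this, List.concat_eq_append]

end Finite

section Path

variable {V : Type u} [MulAction A V] (o t : E → V)

/-- source of a letter -/
def src (x : E × Bool) : V := cond x.2 (o x.1) (t x.1)
/-- target of a letter -/
def tgt (x : E × Bool) : V := cond x.2 (t x.1) (o x.1)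

/-- paths -/
inductive Path : V → List (E × Bool) → V → Prop
  | nil (v : V) : Path v [] v
  | cons (x : E × Bool) (L : List (E × Bool)) (v : V) :
      Path (tgt o t x) L v → Path (src o t x) (x :: L) v

variable {o t}

theorem src_invL (x : E × Bool) : src o t (invL x) = tgt o t x := by
  obtain ⟨e, b⟩ := x; cases b <;> rfl

theorem tgt_invL (x : E × Bool) : tgt o t (invL x) = src o t x := by
  obtain ⟨e, b⟩ := x; cases b <;> rfl

theorem path_nil {v w : V} : Path o t v [] w ↔ v = w :=
  ⟨fun h => by cases h; rfl, fun h => h ▸ Path.nil v⟩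

theorem path_cons {v w : V} {x : E × Bool} {L : List (E × Bool)} :
    Path o t v (x :: L) w ↔ src o t x = v ∧ Path o t (tgt o t x) L w :=
  ⟨fun h => by cases h with | cons _ _ _ h => exact ⟨rfl, h⟩, fun h => h.1 ▸ Path.cons x L w h.2⟩

theorem path_append {v w : V} {L M : List (E × Bool)} :
    Path o t v (L ++ M) w ↔ ∃ z, Path o t v L z ∧ Path o t z M w := by
  induction L generalizing v with
  | nil => simp [path_nil]
  | cons x L ih => simp [path_cons, ih, and_assoc]

theorem Path.step {v w : V} {L M : List (E × Bool)} (h : Path o t v L w) (hs : Red.Step L M) :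
    Path o t v M w := by
  cases hs with
  | @not L1 L2 x b =>
    obtain ⟨z, h1, h2⟩ := path_append.1 h
    obtain ⟨h3, h4⟩ := path_cons.1 h2
    obtain ⟨-, h5⟩ := path_cons.1 h4
    refine path_append.2 ⟨z, h1, ?_⟩
    have : tgt o t (x, !b) = z := by rw [← h3]; exact tgt_invL (x, b)
    rwa [this] at h5

theorem Path.red {v w : V} {L M : List (E × Bool)} (h : Path o t v L w) (hs : Red L M) :
    Path o t v M w := by
  induction hs with
  | refl => exact h
  | tail _ h2 ih => exact ih.step h2

theorem Path.invRev {v w : V} {L : List (E × Bool)} (h : Path o t v L w) :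
    Path o t w (invRev L) v := by
  induction h with
  | nil v => exact Path.nil v
  | cons x L v _ ih =>
    rw [invRev_cons]
    refine path_append.2 ⟨_, ih, path_cons.2 ⟨src_invL x, ?_⟩⟩
    exact path_nil.2 (tgt_invL x)

variable (ho : ∀ (a : A) (e : E), o (a • e) = a • o e) (ht : ∀ (a : A) (e : E), t (a • e) = a • t e)
include ho ht

theorem src_act (a : A) (x : E × Bool) : src o t (actL a x) = a • src o t x := by
  obtain ⟨e, b⟩ := x; cases b
  · exact ht a e
  · exact ho a e

theorem tgt_act (a : A) (x : E × Bool) : tgt o t (actL a x) = a • tgt o t x := by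
  obtain ⟨e, b⟩ := x; cases b
  · exact ho a e
  · exact ht a e

theorem Path.act (a : A) {v w : V} {L : List (E × Bool)} (h : Path o t v L w) :
    Path o t (a • v) (actW a L) (a • w) := by
  induction h with
  | nil v => exact Path.nil _
  | cons x L v _ ih =>
    refine path_cons.2 ⟨src_act ho ht a x, ?_⟩
    rw [tgt_act ho ht]; exact ih

omit ho ht in
theorem path_wd {v w : V} {L : List (E × Bool)} (h : Path o t v L w) :
    Path o t v (wd (mk L)) w := h.red (red_wd L)

/-- `g` leads from `v` to `g w`. -/
def Lead (o t : E → V) (v : V) (g : W A E) (w : V) : Prop := Path o t v (wd g.left) (g.right • w)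

theorem Lead.mul {v w z : V} {g h : W A E} (h1 : Lead o t v g w) (h2 : Lead o t w h z) :
    Lead o t v (g * h) z := by
  unfold Lead at *
  have h3 := h2.act ho ht g.right
  rw [← wd_phi] at h3
  have h4 := path_wd (path_append.2 ⟨_, h1, h3⟩)
  rw [← mul_mk, mk_wd, mk_wd, ← mul_smul] at h4
  exact h4

theorem Lead.inv {v w : V} {g : W A E} (h1 : Lead o t v g w) : Lead o t w g⁻¹ v := by
  unfold Lead at *
  have h3 := path_wd (h1.invRev.act ho ht g.right⁻¹)
  rw [← phi_mk, ← inv_mk, mk_wd, inv_smul_smul] at h3
  exact h3

omit ho ht in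
theorem lead_one (v : V) : Lead o t v (1 : W A E) v := by
  unfold Lead
  rw [SemidirectProduct.one_left, wd_eq_nil.2 rfl, SemidirectProduct.one_right, one_smul]
  exact Path.nil v

/-- The group of loops at `v`. -/
def Gr (v : V) : Subgroup (W A E) where
  carrier := {g | Lead o t v g v}
  one_mem' := lead_one v
  mul_mem' h1 h2 := Lead.mul ho ht h1 h2
  inv_mem' h1 := Lead.inv ho ht h1

theorem finite_conj_aux (n : ℕ) : ∀ (v : V) (H : Subgroup (W A E)) [Finite H],
    H ≤ Gr ho ht v → (∀ h ∈ H, (wd h.left).length ≤ n) →
    ∃ (c : W A E) (w : V), Lead o t v c w ∧ ∀ h ∈ H, (c⁻¹ * h * c).left = 1 := by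
  induction n with
  | zero =>
    intro v H _ _ hn
    refine ⟨1, v, lead_one v, fun h hh => ?_⟩
    have := hn h hh
    simpa using wd_eq_nil.1 (List.length_eq_zero_iff.1 (Nat.le_zero.1 this))
  | succ n ih =>
    intro v H _ hH hn
    by_cases h0 : ∀ h ∈ H, h.left = 1
    · exact ⟨1, v, lead_one v, fun h hh => by simpa using h0 h hh⟩
    push Not at h0
    obtain ⟨h, hh, hne⟩ := h0
    obtain ⟨x, hx⟩ : ∃ x, (wd h.left).head? = some x := by
      match hL : wd h.left with
      | [] => exact absurd (wd_eq_nil.1 hL) hne
      | y :: L => exact ⟨y, rfl⟩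
    let c : W A E := SemidirectProduct.inl (mk [x])
    have hc : Lead o t v c (tgt o t x) := by
      unfold Lead
      have h1 : Lead o t v h v := hH hh
      obtain ⟨M, hM⟩ := shape H hh hx
      unfold Lead at h1
      rw [hM] at h1
      have h2 := (path_cons.1 h1).1
      change Path o t v (wd (mk [x])) ((1 : A) • tgt o t x)
      rw [one_smul]
      exact path_wd (path_cons.2 ⟨h2, Path.nil _⟩)
    let H' : Subgroup (W A E) := H.map (MulAut.conj c⁻¹).toMonoidHom
    have hfin : Finite H' := Finite.of_equiv _ (H.equivMapOfInjective _ (MulAut.conj c⁻¹).injective).toEquiv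
    have hmem : ∀ k ∈ H', ∃ k0 ∈ H, k = c⁻¹ * k0 * c := by
      rintro k ⟨k0, hk0, rfl⟩
      exact ⟨k0, hk0, by simp⟩
    obtain ⟨d, w, hd, hd'⟩ := ih (tgt o t x) H' (by
      intro k hk
      obtain ⟨k0, hk0, rfl⟩ := hmem k hk
      exact Lead.mul ho ht (Lead.mul ho ht (Lead.inv ho ht hc) (hH hk0)) hc) (by
      intro k hk
      obtain ⟨k0, hk0, rfl⟩ := hmem k hk
      have hl : (c⁻¹ * k0 * c).left = (mk [x])⁻¹ * k0.left * mk [actL k0.right x] := by
        simp only [c, SemidirectProduct.mul_left, SemidirectProduct.inv_left,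
          SemidirectProduct.right_inl, SemidirectProduct.left_inl, SemidirectProduct.inv_right,
          SemidirectProduct.mul_right, inv_one, one_mul, phi_mk]
        rw [(phi A E).map_one]
        rfl
      by_cases hk1 : k0.left = 1
      · rw [hl, hk1, fix_head H hh hk0 hx hk1, mul_one, inv_mul_cancel, wd_eq_nil.2 rfl]
        simp
      · obtain ⟨y, hy⟩ : ∃ y, (wd k0.left).head? = some y := by
          match hL : wd k0.left with
          | [] => exact absurd (wd_eq_nil.1 hL) hk1
          | y :: L => exact ⟨y, rfl⟩
        obtain rfl : x = y := head_eq H hh hk0 hx hy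
        obtain ⟨M, hM⟩ := shape H hk0 hy
        have h1 : k0.left = mk [x] * mk M * (mk [actL k0.right x])⁻¹ := by
          rw [inv_mk, mul_mk, mul_mk, ← mk_wd k0.left, hM]
          simp [FreeGroup.invRev, invL]
        have h2 : (c⁻¹ * k0 * c).left = mk M := by
          rw [hl]
          conv_lhs => rw [h1]
          group
        have h3 := hn k0 hk0
        rw [hM] at h3
        have h4 := (red_wd M).length_le
        rw [h2]
        simp only [List.length_cons, List.length_append, List.length_nil] at h3
        omega)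
    refine ⟨c * d, w, Lead.mul ho ht hc hd, fun k hk => ?_⟩
    have := hd' (c⁻¹ * k * c) ⟨k, hk, by simp⟩
    rw [← this]
    congr 1
    group

theorem finite_conj (v : V) (htr : ∀ w : V, ∃ a : A, a • v = w) (H : Subgroup (W A E)) [Finite H]
    (hH : H ≤ Gr ho ht v) :
    ∃ c ∈ Gr ho ht v, ∀ h ∈ H, (c * h * c⁻¹).left = 1 ∧ (c * h * c⁻¹).right • v = v := by
  obtain ⟨n, hn⟩ : ∃ n, ∀ h ∈ H, (wd h.left).length ≤ n := by
    obtain ⟨k, hk⟩ := Finite.exists_max (fun k : H => (wd k.1.left).length)
    exact ⟨_, fun h hh => hk ⟨h, hh⟩⟩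
  obtain ⟨c, w, hc, hc'⟩ := finite_conj_aux ho ht n v H hH hn
  obtain ⟨a, rfl⟩ := htr w
  have ha : Lead o t (a • v) (SemidirectProduct.inr a : W A E) v := by
    unfold Lead
    rw [SemidirectProduct.left_inr, wd_eq_nil.2 rfl]
    exact Path.nil _
  have hca : c * SemidirectProduct.inr a ∈ Gr ho ht v := Lead.mul ho ht hc ha
  refine ⟨(c * SemidirectProduct.inr a)⁻¹, inv_mem hca, fun h hh => ?_⟩
  have h1 : ((c * SemidirectProduct.inr a)⁻¹ * h * (c * SemidirectProduct.inr a)⁻¹⁻¹).left = 1 := by
    have : (c * SemidirectProduct.inr a)⁻¹ * h * (c * SemidirectProduct.inr a)⁻¹⁻¹ =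
      (SemidirectProduct.inr a)⁻¹ * (c⁻¹ * h * c) * SemidirectProduct.inr a := by group
    rw [this, SemidirectProduct.mul_left, SemidirectProduct.mul_left, hc' h hh]
    simp
  refine ⟨h1, ?_⟩
  have h2 : Lead o t v _ v :=
    mul_mem (mul_mem (inv_mem hca) (hH hh)) (inv_mem (inv_mem hca))
  unfold Lead at h2
  rw [h1, wd_eq_nil.2 rfl] at h2
  exact (path_nil.1 h2).symm

omit ho ht in
theorem good_of_path (Good : V → Prop) {v w : V} {L : List (E × Bool)} (h : Path o t v L w)
    (hL : ∀ x ∈ L, Good (o x.1) ↔ Good (t x.1)) (hw : Good w) : Good v := by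
  induction h with
  | nil v => exact hw
  | cons x L v _ ih =>
    have h1 := ih (fun y hy => hL y (List.mem_cons_of_mem _ hy)) hw
    have h2 := hL x List.mem_cons_self
    obtain ⟨e, b⟩ := x
    cases b
    · exact h2.1 h1
    · exact h2.2 h1

omit ho ht in
theorem fix_letters {y : A} {w : FreeGroup E} (h : phi A E y w = w) :
    ∀ x ∈ wd w, y • x.1 = x.1 := by
  have h1 := wd_phi y w
  rw [h, actW] at h1
  intro x hx
  have h2 : ∀ L : List (E × Bool), L = L.map (actL y) → ∀ x ∈ L, actL y x = x := by
    intro L
    induction L with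
    | nil => simp
    | cons z L ih =>
      intro h x hx
      rw [List.map_cons, List.cons.injEq] at h
      rcases List.mem_cons.1 hx with rfl | hx
      · exact h.1.symm
      · exact ih h.2 x hx
  exact congrArg Prod.fst (h2 _ h1 x hx)

omit ho ht in
theorem exists_free [Finite A] (G : Subgroup (W A E)) :
    ∃ N : Subgroup G, N.Normal ∧ IsFreeGroup N ∧ N.index ∣ Nat.card A := by
  let r : G →* A := SemidirectProduct.rightHom.comp G.subtype
  refine ⟨r.ker, inferInstance, ?_, ?_⟩
  · let K : Subgroup (FreeGroup E) := G.comap SemidirectProduct.inl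
    let f : K →* r.ker :=
      { toFun := fun k => ⟨⟨SemidirectProduct.inl k.1, k.2⟩, by
          simp [r, MonoidHom.mem_ker]⟩
        map_one' := by ext <;> simp
        map_mul' := by intro a b; ext <;> simp }
    have hf : Function.Bijective f := by
      constructor
      · intro a b hab
        have := congrArg (fun z : r.ker => z.1.1.left) hab
        exact Subtype.ext this
      · rintro ⟨⟨g, hg⟩, hg'⟩
        have h1 : g.right = 1 := hg'
        have h2 : g = SemidirectProduct.inl g.left := by
          ext
          · rfl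
          · exact h1
        refine ⟨⟨g.left, ?_⟩, ?_⟩
        · change SemidirectProduct.inl g.left ∈ G
          rwa [← h2]
        · exact Subtype.ext (Subtype.ext h2.symm)
    exact IsFreeGroup.ofMulEquiv (MulEquiv.ofBijective f hf)
  · rw [Subgroup.index_ker]
    exact Subgroup.card_subgroup_dvd_card _

end Path

end Cfsg.Agent.Fus2.VFree
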